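import Cfsg.Agent.Lib.Golay.TwoFusion

/-! A Sylow 2-subgroup as a checked list of permutations. -/

set_option autoImplicit false
namespace CfsgLib.Golay.TwoFusion
open Cfsg CfsgLib.Golay
open scoped Pointwise

theorem exists_hom_sylow (c : Cert) (G : Subgroup (Equiv.Perm GolayPt))
    (hG : ∀ g, g ∈ G ↔ g ∈ M24 ∧ ∀ o ∈ c.masks, g • toSet o = toSet o)
    (h1 : grpOk c = true) (h2 : nrmOk c = true) (S : Sylow 2 ↥G) :
    ∃ f : ↥(S : Subgroup ↥G) →* Equiv.Perm GolayPt, Function.Injective f ∧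
      f.range = Subgroup.closure {x | ∃ g ∈ c.gs, toPerm g = x} ∧
      (∀ x, ∃ e ∈ c.es, toPerm e = f x) ∧ ∀ e ∈ c.es, ∃ x, f x = toPerm e := by
  haveI : Fact (Nat.Prime 2) := ⟨Nat.prime_two⟩
  simp only [grpOk, Bool.and_eq_true, decide_eq_true_eq, List.all_eq_true, List.mem_range, beq_iff_eq,
    List.any_eq_true, Bool.or_eq_true, Bool.not_eq_true', bne_iff_ne, ne_eq] at h1
  obtain ⟨⟨⟨⟨⟨⟨⟨⟨⟨⟨hgs, hhead⟩, hlen⟩, hpar⟩, hes⟩, htree⟩, hclosed⟩, hsq⟩, hin⟩, hcen⟩, hnt⟩ := h1
  have hinG : ∀ p, inG c.masks p = true → okPerm p = true ∧ inM24 p = true ∧ toPerm p ∈ G := by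
    intro p hp
    simp only [inG, Bool.and_eq_true, List.all_eq_true, beq_iff_eq] at hp
    have hok : okPerm p = true := by
      have := hp.1; simp only [inM24, Bool.and_eq_true] at this; exact this.1
    exact ⟨hok, hp.1, (hG _).mpr ⟨toPerm_mem_M24 hp.1, fun o ho => by rw [smul_toSet hok, hp.2 o ho]⟩⟩
  have htree' : ∀ x, c.tree.has x = true → x ∈ c.es := fun x hx => by
    simpa using htree x (Tr.has_mem hx)
  have hidp : idp ∈ c.es := List.mem_of_mem_head? (by rw [hhead]; rfl)
  set A : Subgroup (Equiv.Perm GolayPt) := Subgroup.closure {x | ∃ g ∈ c.gs, toPerm g = x}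
  have hAlist : ∀ x ∈ A, ∃ e ∈ c.es, toPerm e = x := by
    intro x hx
    have hx' : x ∈ Submonoid.closure {x | ∃ g ∈ c.gs, toPerm g = x} := by
      rw [← Subgroup.mem_toSubmonoid, Subgroup.closure_toSubmonoid_of_finite] at hx
      exact hx
    induction hx' using Submonoid.closure_induction_left with
    | one => exact ⟨idp, hidp, toPerm_idp⟩
    | mul_left y hy w hw ih =>
      obtain ⟨g, hg, rfl⟩ := hy
      obtain ⟨e, he, rfl⟩ := ih (by
        rw [← Subgroup.mem_toSubmonoid, Subgroup.closure_toSubmonoid_of_finite]; exact hw)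
      refine ⟨_, htree' _ (hclosed g hg e he), comp_spec (hinG g (hgs g hg)).1 (hinG e (hin e he)).1
        (okPerm_comp (hinG g (hgs g hg)).1 (hinG e (hin e he)).1)⟩
  have hlistA : ∀ k, ∀ hk : k < c.es.length, toPerm (c.es[k]) ∈ A := by
    intro k
    induction k using Nat.strong_induction_on with
    | _ k ih =>
      intro hk
      rcases k with _ | k
      · have : c.es[0] = idp := by
          rw [List.head?_eq_getElem?, List.getElem?_eq_getElem hk] at hhead
          exact Option.some.inj hhead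
        rw [this, toPerm_idp]; exact one_mem _
      · have hk' : k < c.par.length := by omega
        obtain ⟨hle, hlt⟩ := hpar k hk'
        have he : c.es[k + 1] = comp (c.gs.getD (c.par.getD k (0, 0)).1 idp)
            (c.es.getD (c.par.getD k (0, 0)).2 idp) := by
          have h := congrArg (fun l : List ℕ => l[k]?) hes
          simp only [List.getElem?_map, List.getElem?_tail, List.getElem?_eq_getElem hk'] at h
          rw [List.getElem?_eq_getElem hk, Option.map_some, Option.some.injEq] at h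
          rw [List.getD_eq_getElem _ _ hk']
          exact h.symm
        rw [he, List.getD_eq_getElem c.gs _ hlt, List.getD_eq_getElem c.es _ (show (c.par.getD k (0, 0)).2 < c.es.length by omega)]
        rw [comp_spec (hinG _ (hgs _ (List.getElem_mem _))).1 (hinG _ (hin _ (List.getElem_mem _))).1
          (okPerm_comp (hinG _ (hgs _ (List.getElem_mem _))).1 (hinG _ (hin _ (List.getElem_mem _))).1)]
        exact mul_mem (Subgroup.subset_closure ⟨_, List.getElem_mem _, rfl⟩) (ih _ (by omega) _)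
  have hlistA' : ∀ e ∈ c.es, toPerm e ∈ A := by
    intro e he
    obtain ⟨k, hk, rfl⟩ := List.mem_iff_getElem.mp he
    exact hlistA k hk
  have hAG : A ≤ G := fun x hx => by
    obtain ⟨e, he, rfl⟩ := hAlist x hx
    exact (hinG e (hin e he)).2.2
  set H : Subgroup ↥G := A.subgroupOf G with hH
  have hHp : IsPGroup 2 ↥H := by
    rintro ⟨⟨x, hxG⟩, hx⟩
    obtain ⟨e, he, hex⟩ := hAlist x hx
    refine ⟨11, Subtype.ext (Subtype.ext ?_)⟩
    show x ^ 2 ^ 11 = 1
    rw [← hex, ← (sqs_spec 11 (hinG e (hin e he)).1).2, hsq e he, toPerm_idp]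
  have hHN : Subgroup.normalizer (H : Set ↥G) ≤ H := by
    intro g hg
    refine mem_of_normOk (H := A) c.steps c.masks [c.es] c.ff h2 ?_ ?_ ?_ (g : Equiv.Perm GolayPt) ?_
    · intro T hT e he
      rw [List.mem_singleton] at hT; subst hT
      exact ⟨(hinG e (hin e he)).1, (hinG e (hin e he)).2.1, hlistA' e he⟩
    · intro T hT a ha b hb
      rw [List.mem_singleton] at hT; subst hT
      simp only [List.getLastD_eq_getLast?, List.getLast?_singleton, Option.getD_some] at hb
      obtain ⟨d, hd, hde⟩ := hAlist _ (mul_mem (mul_mem (hlistA' b hb) (hlistA' a ha)) (inv_mem (hlistA' b hb)))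
      exact ⟨d, hd, hde.symm⟩
    · intro T hT a ha b hb
      rw [List.mem_singleton] at hT; subst hT
      simp only [List.getLastD_eq_getLast?, List.getLast?_singleton, Option.getD_some] at hb
      obtain ⟨d, hd, hde⟩ := hAlist _ (mul_mem (mul_mem (inv_mem (hlistA' b hb)) (hlistA' a ha)) (hlistA' b hb))
      exact ⟨d, hd, hde.symm⟩
    · have hgG := (hG (g : Equiv.Perm GolayPt)).mp g.2
      refine ⟨hgG.1, hgG.2, ?_, ?_⟩
      · intro T hT e he
        rw [List.mem_singleton] at hT; subst hT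
        have := CfsgLib.Fusion.conj_mem_of_normalizer hg
          (show (⟨toPerm e, hAG (hlistA' e he)⟩ : ↥G) ∈ H from hlistA' e he)
        obtain ⟨d, hd, hde⟩ := hAlist _ this
        exact ⟨d, hd, hde.symm⟩
      · intro T hT e he
        rw [List.mem_singleton] at hT; subst hT
        have := CfsgLib.Fusion.conj_mem_of_normalizer (inv_mem hg)
          (show (⟨toPerm e, hAG (hlistA' e he)⟩ : ↥G) ∈ H from hlistA' e he)
        rw [inv_inv] at this
        obtain ⟨d, hd, hde⟩ := hAlist _ this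
        exact ⟨d, hd, hde.symm⟩
  obtain ⟨P, hP⟩ := CfsgLib.Fusion.exists_sylow_eq_of_normalizer_eq hHp hHN
  obtain ⟨g, hg⟩ := MulAction.exists_smul_eq ↥G S P
  have himg : ∀ x : ↥G, x ∈ (S : Subgroup ↥G) ↔ g * x * g⁻¹ ∈ H := by
    intro x
    rw [← hP, ← hg, Sylow.coe_subgroup_smul, Subgroup.mem_pointwise_smul_iff_inv_smul_mem]
    simp [MulAut.smul_def, MulAut.conj_apply, mul_assoc]
  let f : ↥(S : Subgroup ↥G) →* Equiv.Perm GolayPt :=
    G.subtype.comp ((MulAut.conj g).toMonoidHom.comp (S : Subgroup ↥G).subtype)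
  have hinj : Function.Injective f := fun a b h =>
    Subtype.ext ((MulAut.conj g).injective (Subtype.ext h))
  have hrange : f.range = A := by
    ext y
    constructor
    · rintro ⟨x, rfl⟩
      exact (himg x).mp x.2
    · intro hy
      refine ⟨⟨g⁻¹ * ⟨y, hAG hy⟩ * g, (himg _).mpr ?_⟩, ?_⟩
      · have h0 : g * (g⁻¹ * ⟨y, hAG hy⟩ * g) * g⁻¹ = (⟨y, hAG hy⟩ : ↥G) := by group
        rw [h0]; exact hy
      · show ((g * (g⁻¹ * ⟨y, hAG hy⟩ * g) * g⁻¹ : ↥G) : Equiv.Perm GolayPt) = y
        have h0 : g * (g⁻¹ * ⟨y, hAG hy⟩ * g) * g⁻¹ = (⟨y, hAG hy⟩ : ↥G) := by group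
        rw [h0]
  refine ⟨f, hinj, hrange, fun x => hAlist _ (hrange ▸ ⟨x, rfl⟩), fun e he => ?_⟩
  have h : toPerm e ∈ f.range := by rw [hrange]; exact hlistA' e he
  exact h

end CfsgLib.Golay.TwoFusion
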