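import Cfsg.Agent.Lib.Golay.TwoM24QuotData
import Cfsg.Agent.Lib.Golay.TwoSylowHom
import Cfsg.Agent.Lib.ExtraIso

/-! The central quotient of a Sylow 2-subgroup of M24 has a unique abelian subgroup of order 64. -/

set_option autoImplicit false
set_option maxRecDepth 100000

namespace CfsgLib.Golay.TwoM24Quot

open Cfsg CfsgLib.Golay CfsgLib.Golay.TwoFusion

/-- the central involution -/
noncomputable def zz : ℕ := M24.cert.z

/-- generators -/
noncomputable def gg (i : ℕ) : ℕ := M24.cert.gs.getD i idp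

/-- commutation up to the central involution -/
noncomputable def commz (e s : ℕ) : Bool := conjB e s s || conjB e s (comp zz s)

/-- image vector -/
def sig (p : ℕ) : List ℕ := (List.range 24).map (img p)

/-- span -/
def spanL : List ℕ → List ℕ
  | [] => [idp]
  | a :: l => spanL l ++ (spanL l).map (comp a)

/-- elements of the maximal subgroup with pattern `v` -/
noncomputable def sv (v : ℕ) : List ℕ :=
  ((List.range 4).filter fun i => !v.testBit i).map gg ++
    ((List.range 4).filter fun i => v.testBit i).flatMap (fun i =>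
      ((List.range 4).filter fun j => v.testBit j).map fun j => comp (gg i) (gg j)) ++
    ((List.range 4).filter fun i => v.testBit i).flatMap (fun i =>
      ((List.range 4).filter fun u => !v.testBit u).map fun u => comp (gg i) (comp (gg u) (gg i)))

/-- centre check -/
noncomputable def ctrOk : Bool :=
  M24.cert.es.contains zz && M24.cert.gs.all (fun g => conjB g zz zz) &&
    decide (M24.cert.gs.length = 4) && ((List.range 24).any fun i => img zz i != i) &&
    M24.cert.gs.all (fun g => M24.cert.es.contains g)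

theorem ctr_ok : ctrOk = true := by decide +kernel

/-- check of the subgroup of index 8 -/
noncomputable def subOk : Bool :=
  (spanL aG == LA) && aG.all (fun a => M24.cert.es.contains a) && LA.contains zz &&
    tA.toList.all (fun a => LA.contains a) &&
    aG.all (fun g => LA.all fun a => tA.has (comp g a)) &&
    LA.all (fun a => comp a a == idp || comp a a == zz) &&
    decide (LA.map sig).Nodup && decide (LA.length = 128)

theorem sub_ok : subOk = true := by decide +kernel

/-- check of normality and of the cosets -/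
noncomputable def cosOk : Bool :=
  (List.range 4).all (fun k =>
    okPerm (gis.getD k idp) && comp (gg k) (gis.getD k idp) == idp &&
    LA.all fun a => tA.has (comp (comp (gg k) a) (gis.getD k idp)) &&
      tA.has (comp (comp (gis.getD k idp) a) (gg k))) &&
  decide (reps.length = 8) &&
  reps.all (fun r => M24.cert.es.contains r.1 && M24.cert.es.contains r.2 && comp r.1 r.2 == idp) &&
  M24.cert.es.all (fun e => reps.any fun r => tA.has (comp r.2 e)) &&
  LA.all (fun a => sig a != sig (comp (comp (gg 0) (gg 1)) (comp (gis.getD 0 idp) (gis.getD 1 idp))))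

theorem cos_ok : cosOk = true := by decide +kernel

/-- centralizers in the subgroup -/
noncomputable def cenOk : Bool :=
  reps.all fun r => tA.has r.1 ||
    (decide ((LA.filter fun a => commz a r.1).length ≤ 32) &&
      reps.all fun s => tA.has s.1 || tA.has (comp r.2 s.1) ||
        decide ((LA.filter fun a => commz a r.1 && commz a s.1).length ≤ 16))

theorem cen_ok : cenOk = true := by decide +kernel

/-- check of the stored centralizers -/
noncomputable def clOk : Bool :=
  cls.all fun c => M24.cert.es.all fun e => !commz e c.1 || c.2.contains e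

theorem cl_ok : clOk = true := by decide +kernel

/-- centres of the maximal subgroups -/
noncomputable def maxOk : Bool :=
  (List.range 15).all fun w => cls.any fun c =>
    (sv (w + 1)).contains c.1 &&
      decide ((c.2.filter fun e => (sv (w + 1)).all fun s => commz e s).length ≤ 16)

theorem max_ok : maxOk = true := by decide +kernel

theorem card_le_of_map {P : Type*} {f : P → Equiv.Perm GolayPt} (hf : Function.Injective f) {s : Set P}
    {L : List ℕ} (h : ∀ x ∈ s, ∃ e ∈ L, toPerm e = f x) : Nat.card ↥s ≤ L.length := by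
  classical
  have h1 : f '' s ⊆ ((L.map toPerm).toFinset : Set (Equiv.Perm GolayPt)) := by
    rintro _ ⟨x, hx, rfl⟩
    obtain ⟨e, he, hee⟩ := h x hx
    simpa using ⟨e, he, hee⟩
  have h2 := Set.ncard_le_ncard h1 (Finset.finite_toSet _)
  rw [Set.ncard_image_of_injective _ hf, Set.ncard_coe_finset] at h2
  rw [Nat.card_coe_set_eq]
  exact h2.trans ((List.toFinset_card_le _).trans (by simp))

theorem main {P : Type*} [Group P] [Finite P] (hP : IsPGroup 2 P) (f : P →* Equiv.Perm GolayPt)
    (hf : Function.Injective f)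
    (hr : f.range = Subgroup.closure {x | ∃ g ∈ M24.cert.gs, toPerm g = x})
    (hto : ∀ x, ∃ e ∈ M24.cert.es, toPerm e = f x) (hof : ∀ e ∈ M24.cert.es, ∃ x, f x = toPerm e) :
    (∀ M : Subgroup (P ⧸ Subgroup.center P), IsCoatom M → Nat.card ↥(Subgroup.center ↥M) ≤ 8) ∧
      (∃ A : Subgroup (P ⧸ Subgroup.center P), Cfsg.IsElementaryAbelian 2 A ∧ Nat.card ↥A = 64) ∧
      ∀ A B : Subgroup (P ⧸ Subgroup.center P), IsMulCommutative ↥A → Nat.card ↥A = 64 →
        IsMulCommutative ↥B → Nat.card ↥B = 64 → A = B := by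
  classical
  haveI : Fact (Nat.Prime 2) := ⟨Nat.prime_two⟩
  have hg := M24.grp_ok
  simp only [grpOk, Bool.and_eq_true, decide_eq_true_eq, List.all_eq_true, List.mem_range, beq_iff_eq,
    List.any_eq_true, Bool.or_eq_true, Bool.not_eq_true', bne_iff_ne, ne_eq] at hg
  obtain ⟨⟨⟨⟨⟨⟨⟨⟨⟨⟨-, -⟩, -⟩, -⟩, -⟩, -⟩, -⟩, -⟩, hin⟩, hcen⟩, -⟩ := hg
  have hok : ∀ e ∈ M24.cert.es, okPerm e = true := by
    intro e he
    have h := hin e he
    simp only [inG, inM24, Bool.and_eq_true] at h
    exact h.1.1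
  have hc := ctr_ok
  simp only [ctrOk, Bool.and_eq_true, decide_eq_true_eq, List.all_eq_true, List.any_eq_true,
    List.mem_range, List.contains_iff_mem, bne_iff_ne, ne_eq] at hc
  obtain ⟨⟨⟨⟨hzmem, hzc⟩, hglen⟩, iz, hiz, hizne⟩, hgsmem⟩ := hc
  obtain ⟨ζ, hζ⟩ := hof zz hzmem
  have hokg : ∀ g ∈ M24.cert.gs, okPerm g = true := fun g hg => hok g (hgsmem g hg)
  have hζ1 : ζ ≠ 1 := by
    rintro rfl
    rw [map_one] at hζ
    have h := congrArg (fun h : Equiv.Perm GolayPt => idx (h (pt iz))) hζ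
    simp [idx_toPerm (hok _ hzmem), idx_pt hiz] at h
    exact hizne h.symm
  have hgen : ∀ (K : Subgroup P), (∀ g ∈ M24.cert.gs, ∀ x, f x = toPerm g → x ∈ K) → K = ⊤ := by
    intro K hK
    refine (Subgroup.eq_top_iff' K).mpr fun x => ?_
    have hx : f x ∈ f.range := ⟨x, rfl⟩
    rw [hr] at hx
    have hle : Subgroup.closure {x | ∃ g ∈ M24.cert.gs, toPerm g = x} ≤ K.map f := by
      rw [Subgroup.closure_le]
      rintro _ ⟨g, hgg, rfl⟩
      obtain ⟨y, hy⟩ := hof g (hgsmem g hgg)
      exact ⟨y, hK g hgg y hy, hy⟩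
    obtain ⟨y, hy, hyx⟩ := hle hx
    rwa [← hf hyx]
  have hctr : ∀ x, x ∈ Subgroup.center P ↔ x = 1 ∨ x = ζ := by
    intro x
    constructor
    · intro hx
      obtain ⟨e, he, hex⟩ := hto x
      rcases hcen e he with (h | h) | ⟨g, hgg, hgc⟩
      · left; apply hf; rw [map_one, ← hex, h, toPerm_idp]
      · right; apply hf; rw [hζ, ← hex, h]; rfl
      · exfalso
        obtain ⟨y, hy⟩ := hof g (hgsmem g hgg)
        have h1 := congrArg f (Subgroup.mem_center_iff.mp hx y)
        rw [map_mul, map_mul, hy, ← hex] at h1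
        rw [(conjB_iff (hokg g hgg) (hok e he) (hok e he)).mpr h1] at hgc
        cases hgc
    · rintro (rfl | rfl)
      · exact one_mem _
      · refine Subgroup.mem_center_iff.mpr fun y => ?_
        have h0 : y ∈ Subgroup.centralizer ({x} : Set P) := by
          rw [hgen (Subgroup.centralizer ({x} : Set P)) ?_]
          · exact Subgroup.mem_top _
          intro g hgg w hw
          refine Subgroup.mem_centralizer_singleton_iff.mpr (hf ?_)
          rw [map_mul, map_mul, hw, hζ]
          exact (conjB_iff (hokg g hgg) (hok _ hzmem) (hok _ hzmem)).mp (hzc g hgg)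
        exact Subgroup.mem_centralizer_singleton_iff.mp h0
  have hcard2 : Nat.card ↥(Subgroup.center P) = 2 := by
    rw [← SetLike.coe_sort_coe, Nat.card_coe_set_eq,
      show (Subgroup.center P : Set P) = {1, ζ} from Set.ext fun x => by simpa using hctr x,
      Set.ncard_pair (Ne.symm hζ1)]
  let π := QuotientGroup.mk' (Subgroup.center P)
  have hπ : ∀ x y : P, π x = π y ↔ y = x ∨ y = x * ζ := by
    intro x y
    rw [show π x = π y ↔ x⁻¹ * y ∈ Subgroup.center P from QuotientGroup.eq, hctr, inv_mul_eq_one,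
      inv_mul_eq_iff_eq_mul]
    exact or_congr eq_comm Iff.rfl
  have hπs : Function.Surjective π := QuotientGroup.mk'_surjective _
  have hcomap : ∀ K : Subgroup (P ⧸ Subgroup.center P), Nat.card ↥(K.comap π) = 2 * Nat.card ↥K := by
    intro K
    have h1 := Subgroup.card_mul_index (K.comap π)
    have h2 := Subgroup.card_mul_index K
    have h3 := Subgroup.card_eq_card_quotient_mul_card_subgroup (Subgroup.center P)
    rw [Subgroup.index_comap_of_surjective _ hπs] at h1
    rw [hcard2, ← h2] at h3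
    exact Nat.eq_of_mul_eq_mul_right (Nat.pos_of_ne_zero Subgroup.index_ne_zero_of_finite)
      (h1.trans (h3.trans (by ring)))
  have hcm : ∀ {x y : P} {e s : ℕ}, f x = toPerm e → f y = toPerm s → okPerm e = true → okPerm s = true →
      (π x * π y = π y * π x ↔ commz e s = true) := by
    intro x y e s hx hy he hs
    have hzs := okPerm_comp (hok _ hzmem) hs
    rw [← map_mul, ← map_mul, hπ, commz, Bool.or_eq_true, conjB_iff he hs hs, conjB_iff he hs hzs,
      comp_spec (hok _ hzmem) hs hzs, ← hx, ← hy, ← hζ]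
    simp only [← map_mul, hf.eq_iff]
    have hz2 : ζ ∈ Subgroup.center P := (hctr ζ).mpr (Or.inr rfl)
    have hz3 : ∀ a, a * ζ = ζ * a := Subgroup.mem_center_iff.mp hz2
    have hzz : ζ * ζ = 1 := by
      rcases (hctr (ζ * ζ)).mp (mul_mem hz2 hz2) with h | h
      · exact h
      · exact absurd (mul_eq_left.mp h) hζ1
    constructor
    · rintro (h | h)
      · exact Or.inl h.symm
      · right
        calc x * y = x * y * ζ * ζ := by rw [mul_assoc, hzz, mul_one]
          _ = y * x * ζ := by rw [← h]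
          _ = ζ * y * x := by rw [hz3, mul_assoc]
    · rintro (h | h)
      · exact Or.inl h.symm
      · right
        calc y * x = y * x * ζ * ζ := by rw [mul_assoc, hzz, mul_one]
          _ = x * y * ζ := by rw [h, hz3 (y * x), mul_assoc ζ y x]
  have hlift : ∀ (e : ℕ), e ∈ M24.cert.es → ∃ x, f x = toPerm e ∧ okPerm e = true :=
    fun e he => (hof e he).imp fun x hx => ⟨hx, hok e he⟩
  have hggmem : ∀ i < 4, gg i ∈ M24.cert.gs := by
    intro i hi
    rw [gg, List.getD_eq_getElem _ _ (by omega)]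
    exact List.getElem_mem _
  have hgex : ∀ i : Fin 4, ∃ x, f x = toPerm (gg i) := fun i => hof _ (hgsmem _ (hggmem i i.2))
  choose g hgf using hgex
  have hgok : ∀ i : Fin 4, okPerm (gg i) = true := fun i => hokg _ (hggmem i i.2)
  have hgen' : ∀ K : Subgroup P, (∀ i, g i ∈ K) → K = ⊤ := by
    intro K hK
    refine hgen K fun a ha x hx => ?_
    obtain ⟨i, hi, rfl⟩ := List.mem_iff_getElem.mp ha
    have h : gg i = M24.cert.gs[i] := by rw [gg, List.getD_eq_getElem _ _ hi]
    rw [show x = g ⟨i, by omega⟩ from hf (by rw [hx, hgf, ← h])]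
    exact hK _
  -- first part
  refine ⟨fun M hM => ?_, ?_⟩
  · have hidx := (CfsgLib.ExtraIso.index_coatom (hP.to_quotient _) hM).2
    let v : ℕ := (List.range 4).foldl
      (fun acc i => if h : i < 4 then (if π (g ⟨i, h⟩) ∈ M then acc else acc + 2 ^ i) else acc) 0
    obtain ⟨v, hv, hv0, hbit⟩ : ∃ v < 16, v ≠ 0 ∧ ∀ i : Fin 4, v.testBit i = true ↔ π (g i) ∉ M := by
      have key : ∀ b : Fin 4 → Bool, (∃ i, b i = true) →
          ∃ v < 16, v ≠ 0 ∧ ∀ i : Fin 4, v.testBit i = b i := by decide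
      obtain ⟨v, hv, hv0, hvb⟩ := key (fun i => decide (π (g i) ∉ M)) (by
        by_contra hno
        push Not at hno
        have h := hgen' (M.comap π) fun i => by simpa using hno i
        apply hM.1
        rw [← Subgroup.map_comap_eq_self_of_surjective hπs M, h, Subgroup.map_top_of_surjective _ hπs])
      exact ⟨v, hv, hv0, fun i => by rw [hvb i, decide_eq_true_eq]⟩
    have hsv : ∀ s ∈ sv v, ∃ x, f x = toPerm s ∧ π x ∈ M ∧ okPerm s = true := by
      intro s hs
      simp only [sv, List.mem_append, List.mem_map, List.mem_flatMap, List.mem_filter, List.mem_range,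
        Bool.not_eq_true', ← Bool.not_eq_true] at hs
      have hout : ∀ i : Fin 4, v.testBit i = true → π (g i) ∉ M := fun i => (hbit i).mp
      have hins : ∀ i : Fin 4, ¬ v.testBit i = true → π (g i) ∈ M := fun i h => by
        by_contra h'; exact h ((hbit i).mpr h')
      rcases hs with (⟨i, ⟨hi, hb⟩, rfl⟩ | ⟨i, ⟨hi, hb⟩, j, ⟨hj, hb'⟩, rfl⟩) | ⟨i, ⟨hi, hb⟩, j, ⟨hj, hb'⟩, rfl⟩
      · exact ⟨g ⟨i, hi⟩, hgf _, hins ⟨i, hi⟩ hb, hgok ⟨i, hi⟩⟩
      · have o1 := hgok ⟨i, hi⟩; have o2 := hgok ⟨j, hj⟩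
        refine ⟨g ⟨i, hi⟩ * g ⟨j, hj⟩, ?_, ?_, okPerm_comp o1 o2⟩
        · rw [map_mul, hgf, hgf, comp_spec o1 o2 (okPerm_comp o1 o2)]
        · rw [map_mul, Subgroup.mul_mem_iff_of_index_two hidx]
          exact iff_of_false (hout ⟨i, hi⟩ hb) (hout ⟨j, hj⟩ hb')
      · have o1 := hgok ⟨i, hi⟩; have o2 := hgok ⟨j, hj⟩
        have o3 := okPerm_comp o2 o1
        refine ⟨g ⟨i, hi⟩ * (g ⟨j, hj⟩ * g ⟨i, hi⟩), ?_, ?_, okPerm_comp o1 o3⟩
        · rw [map_mul, map_mul, hgf, hgf, comp_spec o1 o3 (okPerm_comp o1 o3), comp_spec o2 o1 o3]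
        · rw [map_mul, Subgroup.mul_mem_iff_of_index_two hidx, map_mul,
            Subgroup.mul_mem_iff_of_index_two hidx]
          have a := hout ⟨i, hi⟩ hb
          have b := hins ⟨j, hj⟩ hb'
          tauto
    have hm := max_ok
    simp only [maxOk, List.all_eq_true, List.any_eq_true, List.mem_range, Bool.and_eq_true,
      decide_eq_true_eq, List.contains_iff_mem] at hm
    obtain ⟨c, hc, hcs, hclen⟩ := hm (v - 1) (by omega)
    rw [show v - 1 + 1 = v by omega] at hcs hclen
    have hcl := cl_ok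
    simp only [clOk, List.all_eq_true, Bool.or_eq_true, Bool.not_eq_true', List.contains_iff_mem] at hcl
    let Z := (Subgroup.center ↥M).map M.subtype
    have hZ : Nat.card ↥(Subgroup.center ↥M) = Nat.card ↥Z :=
      Nat.card_congr ((Subgroup.center ↥M).equivMapOfInjective _ M.subtype_injective).toEquiv
    have h16 : Nat.card ↥((Z.comap π : Subgroup P) : Set P) ≤ 16 := by
      refine (card_le_of_map hf (L := c.2.filter fun e => (sv v).all fun s => commz e s) ?_).trans hclen
      intro x hx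
      obtain ⟨e, he, hex⟩ := hto x
      have hall : ∀ s ∈ sv v, commz e s = true := by
        intro s hs
        obtain ⟨y, hy, hyM, hso⟩ := hsv s hs
        refine (hcm hex.symm hy (hok e he) hso).mp ?_
        obtain ⟨w, hw, hwx⟩ := hx
        have h := congrArg Subtype.val (Subgroup.mem_center_iff.mp hw ⟨π y, hyM⟩)
        rw [show π x = M.subtype w from hwx.symm]
        exact h.symm
      refine ⟨e, List.mem_filter.mpr ⟨?_, List.all_eq_true.mpr hall⟩, hex⟩
      rcases hcl c hc e he with h | h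
      · rw [hall _ hcs] at h; cases h
      · exact h
    have h32 := hcomap Z
    rw [SetLike.coe_sort_coe, h32, ← hZ] at h16
    omega
  have hs := sub_ok
  simp only [subOk, Bool.and_eq_true, decide_eq_true_eq, List.all_eq_true, beq_iff_eq, Bool.or_eq_true,
    List.contains_iff_mem] at hs
  obtain ⟨⟨⟨⟨⟨⟨⟨hspan, haG⟩, hzLA⟩, htree⟩, hclos⟩, hsq⟩, hnd⟩, hlen⟩ := hs
  have htA : ∀ {a : ℕ}, tA.has a = true → a ∈ LA := fun h => htree _ (Tr.has_mem h)
  let A' : Subgroup P := (Subgroup.closure {x | ∃ a ∈ aG, toPerm a = x}).comap f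
  have hspan' : ∀ (l : List ℕ), (∀ a ∈ l, okPerm a = true) → ∀ a ∈ spanL l,
      okPerm a = true ∧ toPerm a ∈ Subgroup.closure {x | ∃ b ∈ l, toPerm b = x} := by
    intro l
    induction l with
    | nil =>
      intro _ a ha
      simp only [spanL, List.mem_singleton] at ha
      subst ha
      exact ⟨okPerm_idp, by rw [toPerm_idp]; exact one_mem _⟩
    | cons b l ih =>
      intro hl a ha
      have ih' := ih fun c hc => hl c (List.mem_cons_of_mem _ hc)
      have hmono : Subgroup.closure {x | ∃ c ∈ l, toPerm c = x} ≤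
          Subgroup.closure {x | ∃ c ∈ b :: l, toPerm c = x} :=
        Subgroup.closure_mono fun x ⟨c, hc, hcx⟩ => ⟨c, List.mem_cons_of_mem _ hc, hcx⟩
      simp only [spanL, List.mem_append, List.mem_map] at ha
      rcases ha with h | ⟨c, hc, rfl⟩
      · exact ⟨(ih' a h).1, hmono (ih' a h).2⟩
      · have o := hl b List.mem_cons_self
        refine ⟨okPerm_comp o (ih' c hc).1, ?_⟩
        rw [comp_spec o (ih' c hc).1 (okPerm_comp o (ih' c hc).1)]
        exact mul_mem (Subgroup.subset_closure ⟨b, List.mem_cons_self, rfl⟩) (hmono (ih' c hc).2)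
  have haGok : ∀ a ∈ aG, okPerm a = true := fun a ha => hok a (haG a ha)
  have hLA : ∀ a ∈ LA, okPerm a = true ∧ toPerm a ∈ Subgroup.closure {x | ∃ b ∈ aG, toPerm b = x} :=
    fun a ha => hspan' aG haGok a (hspan.symm ▸ ha)
  have hidp : idp ∈ LA := by
    rw [← hspan]
    generalize aG = l
    induction l with
    | nil => simp [spanL]
    | cons b l ih => exact List.mem_append_left _ ih
  have hA'to : ∀ x ∈ A', ∃ a ∈ LA, toPerm a = f x := by
    intro x hx
    have hx' : f x ∈ Submonoid.closure {x | ∃ a ∈ aG, toPerm a = x} := by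
      have := Subgroup.mem_comap.mp hx
      rw [← Subgroup.mem_toSubmonoid, Subgroup.closure_toSubmonoid_of_finite] at this
      exact this
    generalize f x = y at hx' ⊢
    induction hx' using Submonoid.closure_induction_left with
    | one => exact ⟨idp, hidp, toPerm_idp⟩
    | mul_left y hy w hw ih =>
      obtain ⟨b, hb, rfl⟩ := hy
      obtain ⟨a, ha, rfl⟩ := ih
      exact ⟨_, htA (hclos b hb a ha),
        comp_spec (haGok b hb) (hLA a ha).1 (okPerm_comp (haGok b hb) (hLA a ha).1)⟩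
  have hAes : Subgroup.closure {x | ∃ a ∈ aG, toPerm a = x} ≤ f.range :=
    (Subgroup.closure_le _).mpr fun _ ⟨a, ha, hax⟩ => hax ▸ hof a (haG a ha)
  have hA'of : ∀ a ∈ LA, ∃ x ∈ A', f x = toPerm a := by
    intro a ha
    obtain ⟨x, hx⟩ := hAes (hLA a ha).2
    exact ⟨x, Subgroup.mem_comap.mpr (hx ▸ (hLA a ha).2), hx⟩
  have hA'card : Nat.card ↥A' = 128 := by
    refine le_antisymm ?_ ?_
    · rw [← SetLike.coe_sort_coe]
      exact (card_le_of_map hf hA'to).trans hlen.le
    · choose x hxA hxf using hA'of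
      have hinj : Function.Injective fun k : Fin LA.length =>
          (⟨x _ (List.getElem_mem k.2), hxA _ (List.getElem_mem k.2)⟩ : ↥A') := by
        intro i j hij
        have h := congrArg (fun w : ↥A' => f w) hij
        simp only [hxf] at h
        have hsig : sig LA[i.1] = sig LA[j.1] := by
          refine List.map_congr_left fun k hk => ?_
          rw [List.mem_range] at hk
          have h2 := congrArg (fun p : Equiv.Perm GolayPt => idx (p (pt k))) h
          simpa [idx_toPerm (hLA _ (List.getElem_mem _)).1, idx_pt hk] using h2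
        have h3 := (hnd.getElem_inj_iff (i := i.1) (j := j.1) (hi := by simp) (hj := by simp)).mp
          (by simpa [List.getElem_map] using hsig)
        exact Fin.ext h3
      have := Nat.card_le_card_of_injective _ hinj
      rwa [Nat.card_fin, hlen] at this
  have hζA : ζ ∈ A' := by
    obtain ⟨x, hx, hxf⟩ := hA'of zz hzLA
    rwa [show ζ = x from hf (hζ.trans hxf.symm)]
  let A := A'.map π
  have hAc : A.comap π = A' := by
    rw [Subgroup.comap_map_eq, QuotientGroup.ker_mk', sup_eq_left]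
    intro x hx
    rcases (hctr x).mp hx with rfl | rfl
    exacts [one_mem _, hζA]
  have hA64 : Nat.card ↥A = 64 := by
    have := hcomap A
    rw [hAc, hA'card] at this
    omega
  have hA2 : ∀ a ∈ A, a ^ 2 = 1 := by
    rintro _ ⟨x, hx, rfl⟩
    obtain ⟨a, ha, hax⟩ := hA'to x hx
    have o := (hLA a ha).1
    have h : f (x * x) = toPerm (comp a a) := by rw [map_mul, ← hax, comp_spec o o (okPerm_comp o o)]
    rw [sq, ← map_mul, ← map_one π, hπ]
    rcases hsq a ha with h' | h'
    · left; apply hf; rw [h, h', toPerm_idp, map_one]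
    · right
      have : x * x = ζ := hf (by rw [h, h', hζ])
      rw [this]
      rcases (hctr (ζ * ζ)).mp (mul_mem ((hctr ζ).mpr (Or.inr rfl)) ((hctr ζ).mpr (Or.inr rfl))) with h'' | h''
      · exact h''.symm
      · exact absurd (mul_eq_left.mp h'') hζ1
  have hAab : IsMulCommutative ↥A := by
    refine ⟨⟨fun a b => ?_⟩⟩
    have h2 : ∀ c : ↥A, c⁻¹ = c := fun c => inv_eq_of_mul_eq_one_right (Subtype.ext (by
      have := hA2 c c.2; rwa [sq] at this))
    calc a * b = (a * b)⁻¹ := (h2 _).symm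
      _ = b⁻¹ * a⁻¹ := mul_inv_rev a b
      _ = b * a := by rw [h2, h2]
  refine ⟨⟨A, ⟨hAab, hA2⟩, hA64⟩, ?_⟩
  suffices huniq : ∀ B : Subgroup (P ⧸ Subgroup.center P), IsMulCommutative ↥B → Nat.card ↥B = 64 → B = A by
    intro A1 B1 h1 h2 h3 h4
    rw [huniq A1 h1 h2, huniq B1 h3 h4]
  intro B hB hB64
  by_contra hne
  have hco := cos_ok
  simp only [cosOk, Bool.and_eq_true, decide_eq_true_eq, List.all_eq_true, List.any_eq_true,
    List.mem_range, beq_iff_eq, List.contains_iff_mem, bne_iff_ne, ne_eq] at hco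
  obtain ⟨⟨⟨⟨hnorm, hrlen⟩, hreps⟩, hcover⟩, huv⟩ := hco
  haveI hAn : A.Normal := by
    refine Subgroup.Normal.map ?_ _ hπs
    rw [← Subgroup.normalizer_eq_top_iff]
    refine hgen' _ fun i => Subgroup.mem_normalizer_iff.mpr fun h => ?_
    obtain ⟨⟨hio, hmul⟩, hall⟩ := hnorm i i.2
    have hinv : f (g i)⁻¹ = toPerm (gis.getD i idp) := by
      rw [map_inv, hgf, inv_eq_iff_mul_eq_one, ← comp_spec (hgok i) hio (okPerm_comp (hgok i) hio), hmul,
        toPerm_idp]
    have back : ∀ (u : P) (w w' : ℕ), f u = toPerm w → f u⁻¹ = toPerm w' → okPerm w = true →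
        okPerm w' = true → (∀ a ∈ LA, tA.has (comp (comp w a) w') = true) →
        ∀ h ∈ A', u * h * u⁻¹ ∈ A' := by
      intro u w w' hu hu' ow ow' hh h hhA
      obtain ⟨a, ha, hax⟩ := hA'to h hhA
      obtain ⟨y, hy, hyf⟩ := hA'of _ (htA (hh a ha))
      have o := okPerm_comp ow (hLA a ha).1
      rwa [show u * h * u⁻¹ = y from hf (by
        rw [hyf, map_mul, map_mul, hu, hu', ← hax, comp_spec o ow' (okPerm_comp o ow'),
          comp_spec ow (hLA a ha).1 o])]
    constructor
    · exact fun hh => back _ _ _ (hgf i) hinv (hgok i) hio (fun a ha => (hall a ha).1) h hh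
    · intro hh
      have := back (g i)⁻¹ _ _ hinv (by rw [inv_inv]; exact hgf i) hio (hgok i) (fun a ha => (hall a ha).2) _ hh
      simpa [mul_assoc] using this
  let q := QuotientGroup.mk' A
  have hrep : ∀ x : P, ∃ r ∈ reps, ∃ y, f y = toPerm r.1 ∧ okPerm r.1 = true ∧ q (π x) = q (π y) := by
    intro x
    obtain ⟨e, he, hex⟩ := hto x
    obtain ⟨r, hr, hre⟩ := hcover e he
    obtain ⟨⟨hr1, hr2⟩, hr12⟩ := hreps r hr
    obtain ⟨y, hy⟩ := hof _ hr1
    refine ⟨r, hr, y, hy, hok _ hr1, Eq.symm (QuotientGroup.eq.mpr ?_)⟩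
    refine ⟨y⁻¹ * x, ?_, by simp⟩
    obtain ⟨w, hw, hwf⟩ := hA'of _ (htA hre)
    have : f y⁻¹ = toPerm r.2 := by
      rw [map_inv, hy, inv_eq_iff_mul_eq_one, ← comp_spec (hok _ hr1) (hok _ hr2)
        (okPerm_comp (hok _ hr1) (hok _ hr2)), hr12, toPerm_idp]
    rwa [show y⁻¹ * x = w from hf (by rw [map_mul, this, ← hex, hwf,
      comp_spec (hok _ hr2) (hok e he) (okPerm_comp (hok _ hr2) (hok e he))])]
  have hQA : Nat.card ((P ⧸ Subgroup.center P) ⧸ A) ≤ 8 := by
    have hrx : ∀ k : Fin reps.length, ∃ y, f y = toPerm (reps[k.1]).1 := fun k =>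
      hof _ (hreps _ (List.getElem_mem _)).1.1
    choose ry hry using hrx
    have hsurj : Function.Surjective fun k : Fin reps.length => q (π (ry k)) := by
      intro w
      obtain ⟨z, rfl⟩ := QuotientGroup.mk'_surjective A w
      obtain ⟨x, rfl⟩ := hπs z
      obtain ⟨r, hr, y, hy, -, hxy⟩ := hrep x
      obtain ⟨k, hk, rfl⟩ := List.mem_iff_getElem.mp hr
      refine ⟨⟨k, hk⟩, ?_⟩
      show q (π (ry ⟨k, hk⟩)) = q (π x)
      rw [hxy, show ry ⟨k, hk⟩ = y from hf ((hry _).trans hy.symm)]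
    have := Nat.card_le_card_of_surjective _ hsurj
    rwa [Nat.card_fin, hrlen] at this
  let φ := q.comp B.subtype
  have hφ : Nat.card ↥φ.range * Nat.card ↥(A ⊓ B) = 64 := by
    rw [← hB64, Subgroup.card_eq_card_quotient_mul_card_subgroup φ.ker,
      Nat.card_congr (QuotientGroup.quotientKerEquivRange φ).toEquiv]
    congr 1
    have hk : φ.ker.map B.subtype = A ⊓ B := by
      ext w
      simp only [Subgroup.mem_map, MonoidHom.mem_ker, φ, MonoidHom.comp_apply, Subgroup.mem_inf]
      constructor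
      · rintro ⟨b, hb, rfl⟩
        exact ⟨(QuotientGroup.eq_one_iff _).mp hb, b.2⟩
      · rintro ⟨h1, h2⟩
        exact ⟨⟨w, h2⟩, (QuotientGroup.eq_one_iff _).mpr h1, rfl⟩
    rw [← hk]
    exact (Nat.card_congr (φ.ker.equivMapOfInjective _ B.subtype_injective).toEquiv).symm
  have hbound : ∀ (x : P) (r : ℕ × ℕ), r ∈ reps → π x ∈ B → ∀ y, f y = toPerm r.1 → okPerm r.1 = true →
      q (π x) = q (π y) → ∀ a ∈ ((A ⊓ B).comap π), ∀ e, toPerm e = f a → okPerm e = true → commz e r.1 = true := by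
    intro x r _ hxB y hy ho hxy a ha e hea heo
    refine (hcm hea.symm hy heo ho).mp ?_
    obtain ⟨haA, haB⟩ := Subgroup.mem_inf.mp (Subgroup.mem_comap.mp ha)
    have hd : (π y)⁻¹ * π x ∈ A := QuotientGroup.eq.mp hxy.symm
    have h1 : π a * π x = π x * π a := congrArg Subtype.val (hB.is_comm.comm ⟨π a, haB⟩ ⟨π x, hxB⟩)
    have h2 : π a * ((π y)⁻¹ * π x) = (π y)⁻¹ * π x * π a :=
      congrArg Subtype.val (hAab.is_comm.comm ⟨π a, haA⟩ ⟨_, hd⟩)
    have key : Commute (π a) (π x * ((π y)⁻¹ * π x)⁻¹) :=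
      (show Commute (π a) (π x) from h1).mul_right (show Commute (π a) ((π y)⁻¹ * π x) from h2).inv_right
    rw [show π x * ((π y)⁻¹ * π x)⁻¹ = π y by group] at key
    exact key.eq
  have hsub : ∀ a ∈ (A ⊓ B).comap π, a ∈ A' := fun a ha => by
    rw [← hAc]; exact (Subgroup.mem_inf.mp (Subgroup.mem_comap.mp ha)).1
  have hnotA : ∀ (r : ℕ × ℕ) (y : P), f y = toPerm r.1 → tA.has r.1 = true → q (π y) = 1 := by
    intro r y hy hh
    obtain ⟨w, hw, hwf⟩ := hA'of _ (htA hh)
    exact (QuotientGroup.eq_one_iff _).mpr ⟨w, hw, by rw [show w = y from hf (hwf.trans hy.symm)]⟩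
  have hcen' := cen_ok
  simp only [cenOk, List.all_eq_true, Bool.or_eq_true, Bool.and_eq_true, decide_eq_true_eq] at hcen'
  obtain ⟨x0, hx0B, hx0A⟩ : ∃ x, π x ∈ B ∧ q (π x) ≠ 1 := by
    by_contra hno
    push Not at hno
    refine hne (Subgroup.eq_of_le_of_card_ge (fun w hw => ?_) (hA64.trans hB64.symm).le)
    obtain ⟨x, rfl⟩ := hπs w
    exact (QuotientGroup.eq_one_iff _).mp (hno x hw)
  obtain ⟨r, hr, y, hy, hyo, hxy⟩ := hrep x0
  rcases hcen' r hr with h | ⟨hlr, hpairs⟩
  · exact hx0A (hxy.trans (hnotA r y hy h))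
  have hD : 2 * Nat.card ↥(A ⊓ B) ≤ 32 := by
    rw [← hcomap, ← SetLike.coe_sort_coe]
    refine (card_le_of_map hf fun a ha => ?_).trans hlr
    obtain ⟨e, he, hea⟩ := hA'to a (hsub a ha)
    exact ⟨e, List.mem_filter.mpr ⟨he, hbound x0 r hr hx0B y hy hyo hxy a ha e hea (hLA e he).1⟩, hea⟩
  obtain ⟨w, hwr, hw1, hwx⟩ : ∃ w ∈ φ.range, w ≠ 1 ∧ w ≠ q (π x0) := by
    by_contra hno
    push Not at hno
    have hsub2 : (φ.range : Set ((P ⧸ Subgroup.center P) ⧸ A)) ⊆ {1, q (π x0)} := fun w hw => by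
      by_cases h : w = 1
      · exact Or.inl h
      · exact Or.inr (hno w hw h)
    have h2 := (Set.ncard_le_ncard hsub2).trans ((Set.ncard_insert_le _ _).trans (by rw [Set.ncard_singleton]))
    rw [← Nat.card_coe_set_eq, SetLike.coe_sort_coe] at h2
    nlinarith
  obtain ⟨⟨b, hb⟩, rfl⟩ := hwr
  obtain ⟨x1, rfl⟩ := hπs b
  obtain ⟨s, hs, y1, hy1, hy1o, hxy1⟩ := hrep x1
  rcases hpairs s hs with (h | h) | hls
  · exact hw1 (hxy1.trans (hnotA s y1 hy1 h))
  · apply hwx
    show q (π x1) = q (π x0)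
    rw [hxy1, hxy]
    have h0 : f y⁻¹ = toPerm r.2 := by
      have h12 := hreps r hr
      rw [map_inv, hy, inv_eq_iff_mul_eq_one, ← comp_spec hyo (hok _ h12.1.2)
        (okPerm_comp hyo (hok _ h12.1.2)), h12.2, toPerm_idp]
    obtain ⟨u, hu, huf⟩ := hA'of _ (htA h)
    refine Eq.symm (QuotientGroup.eq.mpr ⟨y⁻¹ * y1, ?_, by simp⟩)
    rwa [show y⁻¹ * y1 = u from hf (by rw [huf, map_mul, h0, hy1,
      comp_spec (hok _ (hreps r hr).1.2) hy1o (okPerm_comp (hok _ (hreps r hr).1.2) hy1o)])]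
  have hD' : 2 * Nat.card ↥(A ⊓ B) ≤ 16 := by
    rw [← hcomap, ← SetLike.coe_sort_coe]
    refine (card_le_of_map hf fun a ha => ?_).trans hls
    obtain ⟨e, he, hea⟩ := hA'to a (hsub a ha)
    refine ⟨e, List.mem_filter.mpr ⟨he, ?_⟩, hea⟩
    rw [Bool.and_eq_true]
    exact ⟨hbound x0 r hr hx0B y hy hyo hxy a ha e hea (hLA e he).1,
      hbound x1 s hs hb y1 hy1 hy1o hxy1 a ha e hea (hLA e he).1⟩
  have htop : φ.range = ⊤ := Subgroup.eq_top_of_le_card _ (hQA.trans (by nlinarith))
  have hcommQ : ∀ a b : (P ⧸ Subgroup.center P) ⧸ A, a * b = b * a := by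
    intro a b
    obtain ⟨a', rfl⟩ : a ∈ φ.range := htop ▸ Subgroup.mem_top a
    obtain ⟨b', rfl⟩ : b ∈ φ.range := htop ▸ Subgroup.mem_top b
    rw [← map_mul, ← map_mul, hB.is_comm.comm]
  have hmem : π (g 0 * g 1 * ((g 0)⁻¹ * (g 1)⁻¹)) ∈ A := by
    apply (QuotientGroup.eq_one_iff _).mp
    show q (π _) = 1
    rw [map_mul, map_mul, map_mul, map_mul, map_mul, map_mul, map_inv, map_inv, map_inv, map_inv,
      hcommQ (q (π (g 0)))⁻¹ (q (π (g 1)))⁻¹, ← mul_assoc, mul_inv_cancel_right, mul_inv_cancel]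
  have hmem' : g 0 * g 1 * ((g 0)⁻¹ * (g 1)⁻¹) ∈ A' := by rw [← hAc]; exact hmem
  obtain ⟨a, ha, hax⟩ := hA'to _ hmem'
  apply huv a ha
  obtain ⟨⟨hi0, hm0⟩, -⟩ := hnorm 0 (by omega)
  obtain ⟨⟨hi1, hm1⟩, -⟩ := hnorm 1 (by omega)
  have o0 : okPerm (gg 0) = true := hgok 0
  have o1 : okPerm (gg 1) = true := hgok 1
  have e0 : toPerm (gis.getD 0 idp) = (toPerm (gg 0))⁻¹ :=
    eq_inv_of_mul_eq_one_right (by rw [← comp_spec o0 hi0 (okPerm_comp o0 hi0), hm0, toPerm_idp])
  have e1 : toPerm (gis.getD 1 idp) = (toPerm (gg 1))⁻¹ :=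
    eq_inv_of_mul_eq_one_right (by rw [← comp_spec o1 hi1 (okPerm_comp o1 hi1), hm1, toPerm_idp])
  have oL := okPerm_comp o0 o1
  have oR := okPerm_comp hi0 hi1
  have hw : toPerm a = toPerm (comp (comp (gg 0) (gg 1)) (comp (gis.getD 0 idp) (gis.getD 1 idp))) := by
    rw [hax, comp_spec oL oR (okPerm_comp oL oR), comp_spec o0 o1 oL, comp_spec hi0 hi1 oR, e0, e1]
    simp only [map_mul, map_inv, hgf]
    rfl
  refine List.map_congr_left fun k hk => ?_
  rw [List.mem_range] at hk
  have h2 := congrArg (fun p : Equiv.Perm GolayPt => idx (p (pt k))) hw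
  simp only [idx_toPerm (hLA a ha).1, idx_toPerm (okPerm_comp oL oR), idx_pt hk] at h2
  exact h2

end CfsgLib.Golay.TwoM24Quot
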